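import Cfsg.Agent.H602.DP.Min

/-!
# S4247, symplectic row, lemma B: `|C_G(T)|_U| ≤ q^(dim U / 2) + 1` for a minimal nondegenerate `T`-invariant `U`
-/

set_option autoImplicit false
set_option linter.unusedSectionVars false

namespace Cfsg.Agent.H503.DP

open Module Cfsg.Agent.H167.OP Cfsg.Agent.H170.HL Cfsg.Agent.H572.RV Cfsg.Agent.H602.DP

variable {F : Type*} [Field F] [Finite F] {V : Type*} [AddCommGroup V] [Module F V] [Finite V]
  [FiniteDimensional F V] {G : Type*} [Group G] [Finite G]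
  {ρ : Representation F G V} {f : V →ₗ[F] V →ₗ[F] F} {Q : V → F} {t : ℕ} {T : Subgroup G} {U : Submodule F V}

/-- an element of a `t`-group, `t` odd, is a power of its `2^j`-th power -/
theorem odd_pow_fix (ht : Odd t) {z : G} (hz : ∃ k : ℕ, z ^ t ^ k = 1) (j : ℕ) {x : V}
    (hx : ρ (z ^ 2 ^ j) x = x) : ρ z x = x := by
  obtain ⟨k, hk⟩ := hz
  have hcop : Nat.Coprime (2 ^ j) (t ^ k) := (Nat.coprime_two_left.mpr (ht.pow)).pow_left j
  have h1 : ∀ n : ℕ, ρ ((z ^ 2 ^ j) ^ n) x = x := by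
    intro n
    induction n with
    | zero => rw [pow_zero, one_ap]
    | succ n ih => rw [pow_succ, mul_ap, hx, ih]
  obtain ⟨m, hm⟩ := exists_pow_eq_self_of_coprime (x := z) (n := 2 ^ j)
    (hcop.coprime_dvd_right (orderOf_dvd_of_pow_eq_one hk))
  rw [← hm, h1]

variable (h : TS ρ f Q t T) (hU : Mn ρ f T U)

include h in
theorem exists_pow_one {z : G} (hz : z ∈ T) : ∃ k : ℕ, z ^ t ^ k = 1 := by
  obtain ⟨k, hk⟩ := h.hT ⟨z, hz⟩
  exact ⟨k, by simpa [Subtype.ext_iff] using hk⟩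

include h hU in
/-- the vector `x₀` -/
theorem exists_x0 (z₀ : G) (hz₀ : z₀ ∈ T) (hact : ∃ u ∈ U, ρ z₀ u ≠ u) : ∃ x ∈ U, f (ρ z₀ x) x ≠ 0 := by
  by_contra hcon
  push Not at hcon
  obtain ⟨ε, hε, hsym⟩ := h.sym
  have hε0 : ε ≠ 0 := by rintro rfl; simp at hε
  obtain ⟨u, hu, hne⟩ := hact
  -- z₀² = -ε on U
  have hpol : ∀ x ∈ U, ρ z₀ x + ε • ρ z₀⁻¹ x = 0 := by
    intro x hx
    have hxi : ρ z₀⁻¹ x ∈ U := hU.inv _ (T.inv_mem hz₀) x hx
    refine hU.nd _ (U.add_mem (hU.inv _ hz₀ x hx) (U.smul_mem _ hxi)) ?_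
    intro y hy
    have h1 := hcon (x + y) (U.add_mem hx hy)
    rw [map_add, map_add, map_add, LinearMap.add_apply, LinearMap.add_apply, hcon x hx, hcon y hy] at h1
    have h2 : f (ρ z₀ y) x = f y (ρ z₀⁻¹ x) := by
      rw [← h.iso z₀⁻¹ (ρ z₀ y) x, inv_ap]
    rw [map_add, map_smul, smul_eq_mul, hsym y (ρ z₀ x)]
    have h3 : f (ρ z₀ x) y = - f (ρ z₀ y) x := by linear_combination h1
    rw [h3, h2]; ring
  refine hne (odd_pow_fix h.hto (exists_pow_one h hz₀) 2 ?_)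
  have hsq : ∀ x ∈ U, ρ (z₀ ^ 2) x = -(ε • x) := by
    intro x hx
    have := hpol (ρ z₀ x) (hU.inv _ hz₀ x hx)
    rw [inv_ap] at this
    rw [pow_two, mul_ap]
    exact eq_neg_of_add_eq_zero_left this
  have h4 : z₀ ^ 2 ^ 2 = z₀ ^ 2 * z₀ ^ 2 := by group
  rw [h4, mul_ap, hsq u hu, map_neg, map_smul, hsq u hu, smul_neg, neg_neg, smul_smul, hε, one_smul]

/-- the span of the images of `x` under `T` -/
def TX (ρ : Representation F G V) (T : Subgroup G) (x : V) : Submodule F V :=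
  Submodule.span F (Set.range fun z : T => ρ (z : G) x)

theorem mem_TX {x : V} {z : G} (hz : z ∈ T) : ρ z x ∈ TX ρ T x := Submodule.subset_span ⟨⟨z, hz⟩, rfl⟩

theorem inv_TX (x : V) : Inv ρ T (TX ρ T x) := by
  intro z hz v hv
  induction hv using Submodule.span_induction with
  | mem v hv =>
    obtain ⟨w, rfl⟩ := hv
    show ρ z (ρ (w : G) x) ∈ TX ρ T x
    rw [← mul_ap]
    exact mem_TX (T.mul_mem hz w.2)
  | zero => rw [map_zero]; exact Submodule.zero_mem _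
  | add a b _ _ ha hb => rw [map_add]; exact Submodule.add_mem _ ha hb
  | smul c a _ ha => rw [map_smul]; exact Submodule.smul_mem _ _ ha

theorem TX_le (hi : Inv ρ T U) {x : V} (hx : x ∈ U) : TX ρ T x ≤ U := by
  refine Submodule.span_le.mpr ?_
  rintro _ ⟨z, rfl⟩
  exact hi _ z.2 x hx

/-- the value of `y = (1 + u)⁻¹ x` -/
theorem val (hf : ∀ g u v, f (ρ g u) (ρ g v) = f u v) {ε : F} (hε : ε * ε = 1) (hsym : ∀ x y, f x y = ε * f y x)
    {u z : G} (huz : z * u = u * z) (y : V) :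
    f y (ρ z⁻¹ (y + ρ u y) + ε • ρ z (y + ρ u y)) = f (ρ z (y + ρ u y)) (y + ρ u y) := by
  have h1 : ∀ w, f y (ρ z⁻¹ w) = f (ρ z y) w := fun w => by
    rw [← hf z y, ap_inv]
  have h2 : ∀ w, f y (ε • w) = f w y := fun w => by
    rw [map_smul, smul_eq_mul, hsym y w, ← mul_assoc, hε, one_mul]
  have h3 : ρ z (ρ u y) = ρ u (ρ z y) := by rw [← mul_ap, huz, mul_ap]
  have h4 : f (ρ u (ρ z y)) (ρ u y) = f (ρ z y) y := hf _ _ _
  rw [map_add (f y), h1, h2]
  simp only [map_add, LinearMap.add_apply, h3, h4]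
  ring

/-- the solutions of the homogeneous equations -/
def KK (ρ : Representation F G V) (f : V →ₗ[F] V →ₗ[F] F) (T : Subgroup G) (U : Submodule F V) (x₀ : V) (ε : F) :
    Submodule F V where
  carrier := {y | y ∈ U ∧ ∀ z ∈ T, f y (ρ z⁻¹ x₀ + ε • ρ z x₀) = 0}
  zero_mem' := ⟨U.zero_mem, fun z _ => by rw [map_zero f, LinearMap.zero_apply]⟩
  add_mem' := fun {a b} ha hb => ⟨U.add_mem ha.1 hb.1, fun z hz => by
    rw [map_add f, LinearMap.add_apply, ha.2 z hz, hb.2 z hz, add_zero]⟩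
  smul_mem' := fun c a ha => ⟨U.smul_mem c ha.1, fun z hz => by
    rw [map_smul f, LinearMap.smul_apply, ha.2 z hz, smul_zero]⟩

include h hU in
/-- **lemma B** modulo the lemmas A1, A2, A3 -/
theorem cnt_le_of
    (A1 : ∀ X ≤ U, Inv ρ T X → X ≠ U → ∀ x ∈ X, ∀ y ∈ X, f x y = 0)
    (A2 : ∀ u : G, (∀ z ∈ T, z * u = u * z) → (∀ x ∈ U, ρ u x ∈ U) → ∀ c : F, c * c = 1 →
      (∀ x ∈ U, ρ u x = c • x → x = 0) ∨ ∀ x ∈ U, ρ u x = c • x)
    (A3 : ∀ u : G, (∀ z ∈ T, z * u = u * z) → ∀ x ∈ U, ρ u x ∈ U) :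
    cnt ρ T U ≤ Nat.card F ^ (finrank F U / 2) + 1 := by
  classical
  obtain ⟨ε, hε, hsym⟩ := h.sym
  have hε0 : ε ≠ 0 := by rintro rfl; simp at hε
  obtain ⟨z₀, hz₀, hact⟩ := hU.act
  obtain ⟨x₀, hx₀, hne⟩ := exists_x0 h hU z₀ hz₀ hact
  -- `z₀² - 1` is injective on `U`
  have hz2 : ∀ x ∈ U, ρ z₀ (ρ z₀ x) = x → x = 0 := by
    intro x hx hxe
    rcases A2 (z₀ ^ 2) (fun z hz => ((show Commute z z₀ from h.ab z hz z₀ hz₀).pow_right 2).eq)
      (fun x hx => by rw [pow_two, mul_ap]; exact hU.inv _ hz₀ _ (hU.inv _ hz₀ x hx)) 1 (one_mul 1) with h1 | h1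
    · exact h1 x hx (by rw [pow_two, mul_ap, hxe, one_smul])
    · obtain ⟨u, hu, hne⟩ := hact
      exact absurd (odd_pow_fix h.hto (exists_pow_one h hz₀) 1 (by rw [pow_one, h1 u hu, one_smul])) hne
  -- the span of `T x₀`
  have hW : TX ρ T x₀ = U := by
    by_contra hcon
    refine hne (A1 _ (TX_le hU.inv hx₀) (inv_TX x₀) hcon _ (mem_TX hz₀) _ ?_)
    have := mem_TX (ρ := ρ) (x := x₀) T.one_mem
    rwa [one_ap] at this
  -- the linear equations
  have hK2 : 2 * finrank F (KK ρ f T U x₀ ε) ≤ finrank F U := by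
    have hle : KK ρ f T U x₀ ε ≤ U := fun y hy => hy.1
    have hle' : (KK ρ f T U x₀ ε).map (ρ z₀⁻¹) ≤ U := by
      rintro _ ⟨y, hy, rfl⟩
      exact hU.inv _ (T.inv_mem hz₀) y hy.1
    have hdis : KK ρ f T U x₀ ε ⊓ (KK ρ f T U x₀ ε).map (ρ z₀⁻¹) = ⊥ := by
      rw [eq_bot_iff]
      rintro y ⟨hy, ⟨k, hk, hyk⟩⟩
      have hky : ρ z₀ y = k := by rw [← hyk, ap_inv]
      have hyU : y ∈ U := hle hy
      -- `f y (z₀ - z₀⁻¹) z x₀ = 0`
      have h1 : ∀ z ∈ T, f y (ρ z₀ (ρ z x₀) - ρ z₀⁻¹ (ρ z x₀)) = 0 := by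
        intro z hz
        have e1 := hy.2 (z₀ * z) (T.mul_mem hz₀ hz)
        have e2 := hk.2 z hz
        have e3 : ∀ w, f k w = f y (ρ z₀⁻¹ w) := fun w => by
          rw [← hky, ← h.iso z₀⁻¹ (ρ z₀ y) w, inv_ap]
        rw [e3, map_add (ρ z₀⁻¹), map_smul (ρ z₀⁻¹)] at e2
        have e4 : ρ (z₀ * z)⁻¹ x₀ = ρ z₀⁻¹ (ρ z⁻¹ x₀) := by
          rw [← mul_ap, h.ab z₀ hz₀ z hz, mul_inv_rev]
        rw [e4, mul_ap] at e1
        rw [map_add, map_smul, smul_eq_mul] at e1 e2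
        rw [map_sub]
        have e5 : ε * (f y (ρ z₀ (ρ z x₀)) - f y (ρ z₀⁻¹ (ρ z x₀))) = 0 := by linear_combination e1 - e2
        exact (mul_eq_zero.mp e5).resolve_left hε0
      have h2 : ∀ w ∈ U, f y (ρ z₀ w - ρ z₀⁻¹ w) = 0 := by
        intro w hw
        rw [← hW] at hw
        induction hw using Submodule.span_induction with
        | mem v hv =>
          obtain ⟨z, rfl⟩ := hv
          exact h1 z z.2
        | zero => simp
        | add a b _ _ ha hb =>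
          have : ρ z₀ (a + b) - ρ z₀⁻¹ (a + b) = (ρ z₀ a - ρ z₀⁻¹ a) + (ρ z₀ b - ρ z₀⁻¹ b) := by
            rw [map_add, map_add]; abel
          rw [this, map_add, ha, hb, add_zero]
        | smul c a _ ha =>
          have : ρ z₀ (c • a) - ρ z₀⁻¹ (c • a) = c • (ρ z₀ a - ρ z₀⁻¹ a) := by
            rw [map_smul, map_smul, smul_sub]
          rw [this, map_smul, ha, smul_zero]
      have h3 : ρ z₀ y - ρ z₀⁻¹ y = 0 := by
        refine hU.nd _ (U.sub_mem (hU.inv _ hz₀ y hyU) (hU.inv _ (T.inv_mem hz₀) y hyU)) ?_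
        intro w hw
        have e1 : f w (ρ z₀ y) = f (ρ z₀⁻¹ w) y := by rw [← h.iso z₀ (ρ z₀⁻¹ w) y, ap_inv]
        have e2 : f w (ρ z₀⁻¹ y) = f (ρ z₀ w) y := by rw [← h.iso z₀⁻¹ (ρ z₀ w) y, inv_ap]
        rw [map_sub, e1, e2, hsym _ y, hsym _ y, ← mul_sub, ← map_sub]
        have e3 : ρ z₀⁻¹ w - ρ z₀ w = -(ρ z₀ w - ρ z₀⁻¹ w) := by abel
        rw [e3, map_neg, h2 w hw, neg_zero, mul_zero]
      refine hz2 y hyU ?_
      have h4 : ρ z₀ y = ρ z₀⁻¹ y := sub_eq_zero.mp h3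
      rw [h4, ap_inv]
    have h1 := Submodule.finrank_sup_add_finrank_inf_eq (KK ρ f T U x₀ ε) ((KK ρ f T U x₀ ε).map (ρ z₀⁻¹))
    rw [hdis, finrank_bot, add_zero] at h1
    have h2 := Submodule.finrank_mono (sup_le hle hle')
    have h3 : finrank F ((KK ρ f T U x₀ ε).map (ρ z₀⁻¹)) = finrank F (KK ρ f T U x₀ ε) := by
      have hi : Function.Injective (ρ z₀⁻¹) := by
        intro a b hab
        rw [← ap_inv ρ z₀ a, ← ap_inv ρ z₀ b, hab]
      exact ((KK ρ f T U x₀ ε).equivMapOfInjective _ hi).finrank_eq.symm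
    omega
  -- the solutions
  set Y : Set V := {y | y ∈ U ∧ ∀ z ∈ T, f y (ρ z⁻¹ x₀ + ε • ρ z x₀) = f (ρ z x₀) x₀} with hY
  have hYc : Y.ncard ≤ Nat.card F ^ (finrank F U / 2) := by
    have h1 : Y.ncard ≤ (KK ρ f T U x₀ ε : Set V).ncard := by
      rcases Y.eq_empty_or_nonempty with h0 | ⟨y₁, hy₁⟩
      · rw [h0, Set.ncard_empty]; exact Nat.zero_le _
      · refine Set.ncard_le_ncard_of_injOn (fun y => y - y₁) ?_ ?_ (Set.toFinite _)
        · intro y hy
          refine ⟨U.sub_mem hy.1 hy₁.1, fun z hz => ?_⟩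
          rw [map_sub, LinearMap.sub_apply, hy.2 z hz, hy₁.2 z hz, sub_self]
        · intro a _ b _ hab
          exact sub_left_injective hab
    refine h1.trans ?_
    have h2 : (KK ρ f T U x₀ ε : Set V).ncard = Nat.card F ^ finrank F (KK ρ f T U x₀ ε) := by
      rw [← Module.natCard_eq_pow_finrank (K := F)]
      exact (Nat.card_coe_set_eq _).symm
    rw [h2]
    exact Nat.pow_le_pow_right Nat.card_pos (by omega)
  -- uniqueness of the restriction
  have huniq : ∀ u u' : G, (∀ z ∈ T, z * u = u * z) → (∀ z ∈ T, z * u' = u' * z) → ∀ y ∈ U,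
      y + ρ u y = x₀ → y + ρ u' y = x₀ → ∀ v ∈ U, ρ u v = ρ u' v := by
    intro u u' hu hu' y hy hyu hyu' v hv
    have hTy : TX ρ T y = U := by
      refine Submodule.eq_of_le_of_finrank_le (TX_le hU.inv hy) ?_
      have hle : TX ρ T x₀ ≤ (TX ρ T y).map (1 + ρ u) := by
        refine Submodule.span_le.mpr ?_
        rintro _ ⟨z, rfl⟩
        refine ⟨ρ z y, mem_TX z.2, ?_⟩
        show ρ z y + ρ u (ρ z y) = ρ z x₀
        rw [← hyu, map_add, ← mul_ap, ← mul_ap, hu z z.2]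
      rw [hW] at hle
      exact (Submodule.finrank_mono hle).trans (Submodule.finrank_map_le _ _)
    rw [← hTy] at hv
    have hyy : ρ u y = ρ u' y := add_left_cancel (hyu.trans hyu'.symm)
    induction hv using Submodule.span_induction with
    | mem v hv =>
      obtain ⟨z, rfl⟩ := hv
      show ρ u (ρ z y) = ρ u' (ρ z y)
      rw [← mul_ap, ← mul_ap, ← hu z z.2, ← hu' z z.2, mul_ap, mul_ap, hyy]
    | zero => rw [map_zero, map_zero]
    | add a b _ _ ha hb => rw [map_add, map_add, ha, hb]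
    | smul c a _ ha => rw [map_smul, map_smul, ha]
  -- the counting
  set R : Subgroup.centralizer (T : Set G) → (U →ₗ[F] V) := fun u => (ρ (u : G)).domRestrict U with hR
  have hcen : ∀ u : Subgroup.centralizer (T : Set G), ∀ z ∈ T, z * (u : G) = u * z := fun u z hz =>
    Subgroup.mem_centralizer_iff.mp u.2 z hz
  let P : V → (U →ₗ[F] V) → Prop := fun y φ => φ ∈ Set.range R ∧ ∃ hy : y ∈ U, y + φ ⟨y, hy⟩ = x₀
  let c : V → (U →ₗ[F] V) := fun y => if hh : ∃ φ, P y φ then Classical.choose hh else 0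
  have hcover : Set.range R ⊆ insert (-U.subtype) (c '' Y) := by
    rintro _ ⟨u, rfl⟩
    rcases A2 u (hcen u) (A3 u (hcen u)) (-1) (by ring) with h1 | h1
    · right
      -- surjectivity of `1 + u` on `U`
      let L : U →ₗ[F] U := LinearMap.restrict (1 + ρ (u : G)) (fun x hx => U.add_mem hx (A3 u (hcen u) x hx))
      have hLinj : Function.Injective L := by
        rw [← LinearMap.ker_eq_bot, LinearMap.ker_eq_bot']
        rintro ⟨x, hx⟩ hLx
        have : x + ρ (u : G) x = 0 := congrArg Subtype.val hLx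
        refine Subtype.ext (h1 x hx ?_)
        rw [neg_one_smul]
        exact eq_neg_of_add_eq_zero_right this
      obtain ⟨⟨y, hy⟩, hLy⟩ := LinearMap.surjective_of_injective hLinj ⟨x₀, hx₀⟩
      have hyx : y + ρ (u : G) y = x₀ := congrArg Subtype.val hLy
      have hPy : P y (R u) := ⟨⟨u, rfl⟩, hy, hyx⟩
      refine ⟨y, ⟨hy, ?_⟩, ?_⟩
      · intro z hz
        have := val (ρ := ρ) (f := f) h.iso hε hsym (hcen u z hz) y
        rw [hyx] at this
        exact this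
      · have hex : ∃ φ, P y φ := ⟨_, hPy⟩
        have hc : c y = Classical.choose hex := dif_pos hex
        rw [hc]
        obtain ⟨⟨u', hu'⟩, hy', hyu'⟩ := Classical.choose_spec hex
        rw [← hu'] at hyu' ⊢
        refine LinearMap.ext fun v => ?_
        exact (huniq u u' (hcen u) (hcen u') y hy hyx hyu' v v.2).symm
    · left
      refine LinearMap.ext fun v => ?_
      show ρ (u : G) v = -(v : V)
      rw [h1 v v.2, neg_one_smul]
  calc cnt ρ T U = (Set.range R).ncard := Nat.card_coe_set_eq _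
    _ ≤ (insert (-U.subtype) (c '' Y)).ncard := Set.ncard_le_ncard hcover (Set.toFinite _)
    _ ≤ (c '' Y).ncard + 1 := Set.ncard_insert_le _ _
    _ ≤ Y.ncard + 1 := Nat.add_le_add_right (Set.ncard_image_le (Set.toFinite _)) 1
    _ ≤ _ := Nat.add_le_add_right hYc 1

include h hU in
/-- **lemma B** -/
theorem cnt_le : cnt ρ T U ≤ Nat.card F ^ (finrank F U / 2) + 1 :=
  cnt_le_of h hU (fun _ hX hi hne => isotropic_of_proper h hU hX hi hne)
    (fun _ hu huU _ hc => eigen h hU hu huU hc) (fun _ hu => map_mem h hU hu)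

end Cfsg.Agent.H503.DP
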